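import Cfsg.Agent.H19.BS3
import Cfsg.Agent.H10.Act
import Cfsg.Agent.S0025
import Cfsg.Agent.S0007
/-! An involution acting on a subgroup. -/
set_option autoImplicit false
namespace H2.ZS3
open Subgroup H10 Cfsg
open scoped commutatorElement
variable {G : Type*} [Group G] [Finite G]
theorem dih {K : Subgroup G} (ho : Odd (Nat.card K)) {x w : G} (hx : x * x = 1) (hw : w * w = 1) (h : x * w ∈ K) :
    ∃ k ∈ K, k * x * k⁻¹ = w := by
  obtain ⟨j, hj⟩ := ho
  have ix : x⁻¹ = x := inv_eq_of_mul_eq_one_right hx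
  have e : (x * w) ^ (2 * j + 1) = 1 := hj ▸ congrArg Subtype.val (pow_card_eq_one' (x := (⟨_, h⟩ : K)))
  have c : x * (x * w) ^ j * x⁻¹ = ((x * w) ^ j)⁻¹ := by
    rw [← conj_pow, ← inv_pow]; congr 1
    rw [mul_inv_rev, ix, inv_eq_of_mul_eq_one_right hw, ← mul_assoc, hx, one_mul]
  refine ⟨_, pow_mem h j, ?_⟩
  rw [pow_succ, two_mul, pow_add] at e
  calc _ = x * (x * (x * w) ^ j * x⁻¹) * ((x * w) ^ j)⁻¹ := by rw [ix]; simp only [← mul_assoc, hx, one_mul]
    _ = x * ((x * w) ^ j * (x * w) ^ j)⁻¹ := by rw [c]; group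
    _ = w := by rw [inv_eq_of_mul_eq_one_right e, ← mul_assoc, hx, one_mul]
omit [Finite G] in
theorem two {t x : G} (t2 : t * t = 1) (h : x ∈ zpowers t) : x = 1 ∨ x = t := by
  obtain ⟨n, rfl⟩ := h
  have : t ^ (2 : ℤ) = 1 := by rw [zpow_two, t2]
  rcases Int.even_or_odd' n with ⟨k, rfl | rfl⟩
  · exact .inl (by simp [zpow_mul, this])
  · exact .inr (by simp [zpow_add, zpow_mul, this])
omit [Finite G] in
theorem comm_le {C N : Subgroup G} {t : G} (t2 : t * t = 1) (h : ∀ c ∈ C, c * t * c⁻¹ * t⁻¹ ∈ N) : ⁅C, zpowers t⁆ ≤ N :=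
  commutator_le.2 fun c hc x hx => by
    rcases two t2 hx with rfl | rfl
    exacts [by simp, h c hc]
theorem zs {C : Subgroup G} {t : G} (t2 : orderOf t = 2) (hn : t ∈ NN(C))
    (h : ∀ c ∈ C, Commute t (c * t * c⁻¹) → c * t * c⁻¹ = t) : Odd (Nat.card (⁅C, zpowers t⁆ : Subgroup G)) ∧
    ⁅⁅C, zpowers t⁆, zpowers t⁆ = ⁅C, zpowers t⁆ ∧ ∀ c ∈ C, ∃ r ∈ (⁅C, zpowers t⁆ : Subgroup G), Commute t (r * c) := by
  have tt : t * t = 1 := by rw [← pow_two, ← t2, pow_orderOf_eq_one]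
  have it : t⁻¹ = t := inv_eq_of_mul_eq_one_right tt
  have tH : t ∈ C ⊔ zpowers t := mem_sup_right (mem_zpowers t)
  have iso : IsIsolatedInvolution (⟨t, tH⟩ : (C ⊔ zpowers t : Subgroup G)) := ⟨by rw [← orderOf_coe]; exact t2, fun g hg => by
    obtain ⟨c, hc, x, hx, e⟩ := (mem_sup_of_NN' (zpowers_le_of_mem hn)).1 g.2
    have e' : g.1 * t * g.1⁻¹ = c * t * c⁻¹ := by rcases two tt hx with rfl | rfl <;> rw [← e] <;> group
    exact Subtype.ext (e'.trans (h c hc (e' ▸ congrArg Subtype.val hg)))⟩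
  have o : Odd (Nat.card (⁅C, zpowers t⁆ : Subgroup G)) := by
    refine Odd.of_dvd_nat (n := Nat.card ((pPrimeCore 2 (C ⊔ zpowers t : Subgroup G)).map (Subgroup.subtype _))) ?_
      (card_dvd_of_le (comm_le tt fun c hc => ?_))
    · rw [card_map_subtype]; exact Nat.coprime_two_right.1 (H1.coprime_card_pPrimeCore 2)
    · exact ⟨_, inv_mem (H19.zstar iso ⟨c, mem_sup_left hc⟩), by simp [mul_assoc]⟩
  have k : ∀ c ∈ C, ∃ r ∈ (⁅C, zpowers t⁆ : Subgroup G), r * (c * t * c⁻¹) * r⁻¹ = t := fun c hc =>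
    dih o (by calc _ = c * (t * t) * c⁻¹ := by group
      _ = 1 := by rw [tt]; group) tt (by simpa only [commutatorElement_def, it] using commutator_mem_commutator hc (mem_zpowers t))
  refine ⟨o, le_antisymm (comm_le tt fun r hr => ?_) (comm_le tt fun c hc => ?_), fun c hc => ?_⟩
  · simpa only [mul_assoc, mul_inv_rev, inv_inv] using mul_mem hr (conj_mem_of_mem_NN
      (mem_NN_commutator hn (le_NN_self _ (mem_zpowers t))) (inv_mem hr))
  · obtain ⟨r, hr, e⟩ := k c hc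
    have := commutator_mem_commutator (inv_mem hr) (mem_zpowers t)
    rw [commutatorElement_def] at this
    rwa [show c * t * c⁻¹ = r⁻¹ * t * r⁻¹⁻¹ by
      calc _ = r⁻¹ * (r * (c * t * c⁻¹) * r⁻¹) * r⁻¹⁻¹ := by group
        _ = _ := by rw [e]]
  · obtain ⟨r, hr, e⟩ := k c hc
    refine ⟨r, hr, ?_⟩
    change t * (r * c) = r * c * t
    calc _ = r * (c * t * c⁻¹) * r⁻¹ * (r * c) := by rw [e]
      _ = _ := by group
theorem oi {p : ℕ} [Fact p.Prime] {O : Subgroup G} {t : G} (t2 : t * t = 1) (ho : Odd (Nat.card O)) (hn : t ∈ NN(O))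
    (h : ∀ x ∈ O, t * x * t⁻¹ = x⁻¹ → (orderOf x).Coprime p → x = 1) : IsPGroup p (⁅O, zpowers t⁆ : Subgroup G) := by
  have it : t⁻¹ = t := inv_eq_of_mul_eq_one_right t2
  have sy : ∀ (r : ℕ) [Fact r.Prime], ∃ P : Sylow r O, t ∈ NN((P : Subgroup O).map O.subtype) := fun r _ => by
    obtain ⟨P, -, a⟩ := Cfsg.Agent.S0025.result (zpowers t) O (zpowers_le_of_mem hn) (by
      rw [Nat.card_zpowers]
      exact (Nat.coprime_two_left.2 ho).coprime_dvd_left (orderOf_dvd_of_pow_eq_one (by rw [pow_two, t2])))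
      (.inl inferInstance) r ⊥ bot_le IsPGroup.of_bot (NN_bot (G := G) ▸ le_top)
    exact ⟨P, a (mem_zpowers t)⟩
  obtain ⟨P, hP⟩ := sy p
  have cop : (P : Subgroup O).index.Coprime ((centralizer {t}).subgroupOf O).index := by
    refine Nat.coprime_of_dvd fun r hr a b => ?_
    haveI := Fact.mk hr
    have rp : r ≠ p := fun e => P.not_dvd_index (e ▸ a)
    obtain ⟨R, hR⟩ := sy r
    refine R.not_dvd_index (b.trans (index_dvd_of_le fun x hx => ?_))
    have m : x.1⁻¹ * (t * x * t⁻¹) ∈ (R : Subgroup O).map O.subtype :=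
      mul_mem (inv_mem (mem_map_of_mem _ hx)) (conj_mem_of_mem_NN hR (mem_map_of_mem _ hx))
    obtain ⟨k, e⟩ := (R.isPGroup'.map O.subtype) ⟨_, m⟩
    have := h _ (map_subtype_le _ m) (by
      calc _ = t * x.1⁻¹ * t⁻¹ * (t * t) * x * (t * t)⁻¹ := by group
        _ = _ := by rw [t2]; group) (Nat.Coprime.coprime_dvd_left (orderOf_dvd_of_pow_eq_one (congrArg Subtype.val e))
      (((Nat.coprime_primes hr Fact.out).2 rp).pow_left k))
    rw [mem_subgroupOf, mem_centralizer_singleton_iff]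
    rw [inv_mul_eq_one, eq_mul_inv_iff_mul_eq] at this
    exact this
  refine (P.isPGroup'.map O.subtype).to_le (comm_le t2 fun c hc => ?_)
  obtain ⟨s, hs, d, hd, e⟩ := (Cfsg.Agent.S0007.result _ _ cop).2 ⟨c, hc⟩
  have hd : d.1 * t = t * d.1 := mem_centralizer_singleton_iff.1 hd
  have := mul_mem (mem_map_of_mem O.subtype hs) (conj_mem_of_mem_NN hP (inv_mem (mem_map_of_mem O.subtype hs)))
  convert this using 1
  rw [show c = s.1 * d.1 from congrArg Subtype.val e, mul_assoc s.1, hd]; simp [mul_assoc]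
theorem ev {K : Subgroup G} {t : G} (t2 : t * t = 1) (hn : t ∈ NN(K)) (h : ∀ r ∈ K, r * r = 1 → Commute t r → r = 1) :
    Odd (Nat.card K) := by
  by_contra e
  have pt : IsPGroup 2 (zpowers t) := isPGroup_zpowers (k := 1) (by rw [pow_one, pow_two, t2])
  obtain ⟨T, hT, a⟩ := exists_isSylowIn_ge pt (le_sup_right (a := K))
  have s := hT.inf_normal le_sup_left (sup_le (le_NN_self K) (zpowers_le_of_mem hn))
  have := inf_CC_ne_bot hT.isPGroup inf_le_left a (le_NN_inf (a.trans (le_NN_self T)) (zpowers_le_of_mem hn))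
    (s.ne_bot (Nat.not_odd_iff_even.1 e).two_dvd)
  obtain ⟨⟨r, hr⟩, o⟩ := exists_prime_orderOf_dvd_card' (G := (T ⊓ K ⊓ CC(zpowers t) : Subgroup G)) 2 (by
    obtain ⟨n, hn⟩ := (hT.isPGroup.to_le (inf_le_left.trans inf_le_left : T ⊓ K ⊓ CC(zpowers t) ≤ T)).exists_card_eq
    rw [hn]; refine dvd_pow_self 2 fun z => this ?_
    rw [z, pow_zero] at hn; exact card_eq_one.1 hn)
  replace o : orderOf r = 2 := (orderOf_coe _).trans o
  have := h r hr.1.2 (by rw [← pow_two, ← o, pow_orderOf_eq_one]) (hr.2 t (mem_zpowers t))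
  rw [this] at o; simp at o
end H2.ZS3
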