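import Cfsg.Agent.H2.D1x
import Cfsg.Agent.H2.D3

/-!
No simple group of order 15840 with a self-centralizing Sylow 11-subgroup of automizer 10.
-/

set_option autoImplicit false
set_option linter.unusedSectionVars false

open scoped ComplexConjugate
open Cfsg H17 H19 Subgroup
open H20 (cent nrm)

namespace H2.Db

variable {G : Type*} [Group G] [Finite G]

theorem inv4 (hG : commutator G = ⊤) {χ : G → ℂ} (hχ : IsCharacter G χ) {u : G}
    (hu : u * u = 1) : ∃ k : ℕ, χ u = χ 1 - 4 * k := by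
  classical
  obtain ⟨n, l, hn, hl⟩ := (hχ.restrict (zpowers u)).exists_sum_linear (ch_comm_zpowers u)
  set v : zpowers u := ⟨u, mem_zpowers u⟩
  have h3 := ch_det_prod hG hχ (zpowers u).subtype l hl v
  have hv : v * v = 1 := Subtype.ext hu
  have h4 : ∀ i, l i v = 1 ∨ l i v = -1 := fun i => by
    have h5 : (l i v : ℂ) * l i v = 1 := by rw [← Units.val_mul, ← map_mul, hv, map_one]; rfl
    rcases mul_self_eq_one_iff.1 h5 with h | h
    · exact Or.inl (Units.ext h)
    · exact Or.inr (Units.ext h)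
  have h5 : ∀ i, l i v = if l i v = 1 then 1 else -1 := fun i => by
    split_ifs with h
    · exact h
    · exact (h4 i).resolve_left h
  set A := Finset.univ.filter fun i => ¬ l i v = 1
  have h6 : ∏ i, l i v = (-1) ^ A.card := by
    rw [Finset.prod_congr rfl fun i _ => h5 i, Finset.prod_ite]
    simp [A]
  have h7 : Even A.card := by
    rw [h3] at h6
    by_contra h
    rw [(Nat.not_even_iff_odd.1 h).neg_one_pow] at h6
    have := congrArg (fun z : ℂˣ => (z : ℂ)) h6
    norm_num at this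
  obtain ⟨k, hk⟩ := h7
  refine ⟨k, ?_⟩
  have h8 : χ u = ∑ i, (l i v : ℂ) := hl v
  have h9 : χ 1 = n := hn
  have h10 : ∑ i, (1 - (l i v : ℂ)) = ∑ i, if ¬ l i v = 1 then (2 : ℂ) else 0 :=
    Finset.sum_congr rfl fun i _ => by
      rcases h4 i with h | h
      · simp [h]
      · have : ¬ l i v = 1 := by
          rw [h]; intro e
          have := congrArg (fun z : ℂˣ => (z : ℂ)) e
          norm_num at this
        rw [if_pos this, h]; norm_num
  rw [← Finset.sum_filter, Finset.sum_const, Finset.sum_sub_distrib, ← h8] at h10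
  change _ = A.card • (2 : ℂ) at h10
  rw [hk] at h10
  simp only [Finset.sum_const, Finset.card_univ, Fintype.card_fin, nsmul_eq_mul, mul_one,
    Nat.cast_add] at h10
  rw [h9]
  linear_combination -h10

theorem dih {χ : G → ℂ} (hχ : IsCharacter G χ) (P : Subgroup G) [Fintype P] {u : G}
    (hu : u * u = 1) (huP : u ∉ P) (hn : u ∈ normalizer (P : Set G))
    (hf : ∀ x ∈ P, x * u = u * x → x = 1) :
    ∃ m : ℕ, ∑ x : P, χ x + Nat.card P * χ u = m := by
  classical
  haveI := Fintype.ofFinite G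
  have hi : u⁻¹ = u := inv_eq_of_mul_eq_one_right hu
  have hc : ∀ x ∈ P, u * x * u ∈ P := fun x hx => by
    have := (mem_normalizer_iff.1 hn x).1 hx
    rwa [hi] at this
  let D : Subgroup G :=
    { carrier := {g | g ∈ P ∨ g * u ∈ P}
      one_mem' := Or.inl P.one_mem
      mul_mem' := by
        rintro a b (ha | ha) (hb | hb)
        · exact Or.inl (P.mul_mem ha hb)
        · exact Or.inr (by rw [mul_assoc]; exact P.mul_mem ha hb)
        · refine Or.inr ?_
          have := P.mul_mem ha (hc b hb)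
          rwa [show a * u * (u * b * u) = a * (u * u) * b * u by group, hu, mul_one] at this
        · refine Or.inl ?_
          have := P.mul_mem ha (hc _ hb)
          rwa [show a * u * (u * (b * u) * u) = a * (u * u) * b * (u * u) by group, hu, mul_one,
            mul_one] at this
      inv_mem' := by
        rintro a (ha | ha)
        · exact Or.inl (P.inv_mem ha)
        · refine Or.inr ?_
          have := hc _ (P.inv_mem ha)
          rwa [mul_inv_rev, hi, show u * (u * a⁻¹) * u = (u * u) * a⁻¹ * u by group, hu,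
            one_mul] at this }
  obtain ⟨m, hm⟩ := ch_sum_sub hχ D
  refine ⟨Nat.card D * m, ?_⟩
  rw [Nat.cast_mul, ← hm]
  have e1 : ∀ (K : Subgroup G) [Fintype K] (f : G → ℂ),
      ∑ x : K, f x = ∑ g, if g ∈ K then f g else 0 := fun K _ f => by
    rw [← Finset.sum_filter]
    exact (Finset.sum_subtype _ (by simp) f).symm
  have e2 : (Nat.card P : ℂ) * χ u = ∑ g, if g * u ∈ P then χ g else 0 := by
    have h1 : ∑ x : P, χ (x * u) = Nat.card P * χ u := by
      rw [Finset.sum_congr rfl (g := fun _ => χ u) fun x _ => by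
        obtain ⟨k, -, hk⟩ := exists_conj_of_fpf hn hf x.2
        rw [← hk, hχ.isClassFunction]]
      simp
    rw [← h1, e1 P fun g => χ (g * u)]
    refine Fintype.sum_equiv (Equiv.mulRight u) _ _ fun g => ?_
    simp [mul_assoc, hu]
  rw [e2, e1 P, e1 D, ← Finset.sum_add_distrib]
  refine Finset.sum_congr rfl fun g _ => ?_
  have hD : g ∈ D ↔ g ∈ P ∨ g * u ∈ P := Iff.rfl
  by_cases h1 : g ∈ P
  · have h2 : g * u ∉ P := fun h => huP ((P.mul_mem_cancel_left h1).1 h)
    simp [hD, h1, h2]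
  · by_cases h2 : g * u ∈ P <;> simp [hD, h1, h2]

theorem cyc10 {χ : G → ℂ} (hχ : IsCharacter G χ) {w : G} (hw : orderOf w = 10)
    (h : ∀ g, 5 ∣ orderOf g → χ g = 1) : ∃ m : ℕ, χ 1 + 8 + χ (w ^ 5) = 10 * m := by
  haveI := Fintype.ofFinite (zpowers w)
  obtain ⟨m, hm⟩ := ch_sum_sub hχ (zpowers w)
  refine ⟨m, ?_⟩
  rw [Nat.card_zpowers, hw] at hm
  have e1 : ∑ x : zpowers w, χ x = ∑ i : Fin (orderOf w), χ (w ^ (i : ℕ)) :=
    (Fintype.sum_equiv (finEquivZPowers (isOfFinOrder_of_finite w)) _ _ fun i => rfl).symm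
  rw [e1, Fin.sum_univ_eq_sum_range (fun i => χ (w ^ i)), hw] at hm
  have e2 : ∀ k : ℕ, k ≠ 0 → Nat.gcd 10 k ∣ 2 → χ (w ^ k) = 1 := fun k hk h2 => by
    apply h
    rw [orderOf_pow' _ hk, hw]
    rcases (Nat.dvd_prime Nat.prime_two).1 h2 with h3 | h3 <;> rw [h3] <;> norm_num
  simp only [Finset.sum_range_succ, Finset.sum_range_zero, pow_zero] at hm
  rw [e2 1, e2 2, e2 3, e2 4, e2 6, e2 7, e2 8, e2 9] at hm <;> try norm_num
  push_cast at hm
  linear_combination hm

theorem sq_le_card (χ : IrrCharacter G) : dg χ ^ 2 ≤ Nat.card G := by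
  classical
  have h1 := sum_irr_sq (G := G)
  simp only [← cast_deg] at h1
  have h2 : ∑ χ : IrrCharacter G, dg χ ^ 2 = Nat.card G := by exact_mod_cast h1
  rw [← h2]
  exact Finset.single_le_sum (f := fun χ : IrrCharacter G => dg χ ^ 2) (fun _ _ => Nat.zero_le _)
    (Finset.mem_univ χ)

instance f11 : Fact (Nat.Prime 11) := ⟨by norm_num⟩
instance f5 : Fact (Nat.Prime 5) := ⟨by norm_num⟩

theorem key : ∀ d < 126, d ∣ 1440 → d ≠ 10 → d ≠ 1 → (d % 11 = 1 ∨ d % 11 = 10) →
    d = 12 ∨ d = 32 ∨ d = 45 ∨ d = 120 := by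
  intro d hd
  interval_cases d <;> simp

theorem degs (hG : commutator G = ⊤) (h : Nat.card G = 15840) (P : Sylow 11 G)
    (hC : cent (P : Subgroup G) ≤ P)
    (he : (cent (P : Subgroup G)).relIndex (nrm (P : Subgroup G)) = 10) {χ : IrrCharacter G}
    (h1 : χ ≠ triv G) : (dg χ = 12 ∨ dg χ = 32 ∨ dg χ = 45 ∨ dg χ = 120) ∨
      (11 ∣ dg χ ∧ ∀ g, 11 ∣ orderOf g → (χ : G → ℂ) g = 0) := by
  classical
  have hP : Nat.card (P : Subgroup G) = 11 := by
    simpa using sm_card_sylow_eq P (k := 1) (m := 1440) (by rw [h]; norm_num) (by norm_num)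
  have hI : (cent (P : Subgroup G)).index = 1440 := by
    rw [le_antisymm hC (sm_le_cent hP)]
    exact sm_index_sylow_eq P (k := 1) (m := 1440) (by rw [h]; norm_num) (by norm_num)
  obtain ⟨O, _, hO⟩ := exists_ovp 11
  obtain ⟨X, Y, s, ε, hD⟩ := d1_exists hO (by norm_num) P hP
  rw [he] at hD
  have hY : Y.card = 1 := by have := hD.cardY; omega
  by_cases hB : χ ∈ irr (B0 O G)
  · left
    have d1 : dg χ ∣ 1440 := by
      rw [← hI]
      rcases ((hD.mem χ).1 hB).resolve_left h1 with h2 | h2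
      · exact hD.dvdX h2
      · exact hD.dvdY h2
    have d2 : dg χ ≠ 10 := fun e => by
      rcases ((hD.mem χ).1 hB).resolve_left h1 with h2 | h2
      · have := hD.det_X hG hC h2 (by omega) (by norm_num)
        rw [hY] at this
        exact Nat.not_even_one this
      · exact hD.det_Y hG hC h2 (by omega) hY
    have d3 : dg χ ≠ 1 := ch_deg_ne_one hG h1
    have d4 := hD.deg_cases hB h1
    have d5 := sq_le_card χ
    rw [h] at d5
    have d6 : dg χ < 126 := by nlinarith
    have d7 : dg χ % 11 = 1 ∨ dg χ % 11 = 10 := by omega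
    exact key _ d6 d1 d2 d3 d7
  · right
    have h2 : ∀ g, 11 ∣ orderOf g → (χ : G → ℂ) g = 0 := fun g hg => hD.zero_of_not_mem hC hB hg
    refine ⟨?_, h2⟩
    haveI := Fintype.ofFinite (P : Subgroup G)
    obtain ⟨m, hm⟩ := ch_sum_sub χ.2.isCharacter (P : Subgroup G)
    rw [ch_sum_const (fun x : (P : Subgroup G) => (χ : G → ℂ) x) 0
      (fun x hx => h2 x (hD.sing x.2 fun e => hx (Subtype.ext e))), hP, mul_zero, add_zero,
      OneMemClass.coe_one, ← cast_deg] at hm
    exact ⟨m, by exact_mod_cast hm⟩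

theorem no11 [IsSimpleGroup G] (hG : commutator G = ⊤) {P : Subgroup G} (hP : Nat.card P = 11)
    (hC : cent P ≤ P) (he : (cent P).relIndex (nrm P) = 10) {χ : IrrCharacter G}
    (h1 : χ ≠ triv G) (hd : dg χ = 11) (h0 : ∀ g, 11 ∣ orderOf g → (χ : G → ℂ) g = 0)
    (h5 : ∀ g, 5 ∣ orderOf g → (χ : G → ℂ) g = 1) : False := by
  haveI := Fintype.ofFinite P
  obtain ⟨w, hw, ho, -⟩ := af_exists_gen hP hC he (by norm_num)
  have hu : w ^ 5 * w ^ 5 = 1 := by
    rw [← pow_add, show 5 + 5 = orderOf w by rw [ho], pow_orderOf_eq_one]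
  have ho2 : orderOf (w ^ 5) = 2 := by rw [orderOf_pow' _ (by norm_num), ho]; norm_num
  have hne : w ^ 5 ≠ 1 := fun e => by rw [e, orderOf_one] at ho2; norm_num at ho2
  have huP : w ^ 5 ∉ P := fun hm => by
    rw [sm_orderOf_eq hP hm hne] at ho2; norm_num at ho2
  have c1 : (χ : G → ℂ) 1 = 11 := by rw [← cast_deg]; exact_mod_cast congrArg (fun n : ℕ => (n : ℂ)) hd
  obtain ⟨k, hk⟩ := inv4 hG χ.2.isCharacter hu
  obtain ⟨m, hm⟩ := dih χ.2.isCharacter P hu huP (pow_mem hw 5) (af_fpf hP hC huP)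
  obtain ⟨n, hn⟩ := cyc10 χ.2.isCharacter ho h5
  rw [ch_sum_const (fun x : P => (χ : G → ℂ) x) 0
      (fun x hx => h0 x (by rw [sm_orderOf_eq hP x.2 fun e => hx (Subtype.ext e)])), hP, mul_zero,
      add_zero, OneMemClass.coe_one] at hm
  have hk0 : k ≠ 0 := by
    rintro rfl
    have h2 := χ.2.mem_charKer.2 (show (χ : G → ℂ) (w ^ 5) = (χ : G → ℂ) 1 by simpa using hk)
    rw [χ.2.charKer_eq_bot_of_simple (fun e => h1 (Subtype.ext (by rw [e, coe_triv]))),
      mem_bot] at h2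
    exact hne h2
  rw [hk, c1] at hm hn
  have e1 : (11 : ℤ) + 11 * (11 - 4 * k) = m := by exact_mod_cast hm
  have e2 : (11 : ℤ) + 8 + (11 - 4 * k) = 10 * n := by exact_mod_cast hn
  omega

theorem no15840 {S : Type*} [Group S] [Finite S] [IsSimpleGroup S] (h : Nat.card S = 15840)
    (P : Sylow 11 S) (hC : H20.cent (P : Subgroup S) ≤ P)
    (he : (H20.cent (P : Subgroup S)).relIndex (H20.nrm (P : Subgroup S)) = 10) : False := by
  classical
  have hn : ¬ IsMulCommutative S := sm_noncomm_of_card (by rw [h]; norm_num)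
  have hG := sm_commutator_eq_top hn
  have hP : Nat.card (P : Subgroup S) = 11 := by
    simpa using sm_card_sylow_eq P (k := 1) (m := 1440) (by rw [h]; norm_num) (by norm_num)
  obtain ⟨Q⟩ : Nonempty (Sylow 5 S) := inferInstance
  have hQ : Nat.card (Q : Subgroup S) = 5 := by
    simpa using sm_card_sylow_eq Q (k := 1) (m := 3168) (by rw [h]; norm_num) (by norm_num)
  obtain ⟨O, _, hO⟩ := exists_ovp 5
  obtain ⟨X, Y, s, ε, hD⟩ := d1_exists hO (by norm_num) Q hQ
  have e1 := sm_e_dvd Q hQ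
  have e2 := sm_e_ne_one hn Q (by rw [h]; norm_num)
  change (cent (Q : Subgroup S)).relIndex (nrm (Q : Subgroup S)) ∣ _ at e1
  change (cent (Q : Subgroup S)).relIndex (nrm (Q : Subgroup S)) ≠ _ at e2
  generalize (cent (Q : Subgroup S)).relIndex (nrm (Q : Subgroup S)) = e at *
  have hX : ∀ χ ∈ X, 11 ∣ dg χ ∧ ∀ g, 11 ∣ orderOf g → (χ : S → ℂ) g = 0 := fun χ hχ => by
    refine (degs hG h P hC he (hD.X_ne hχ)).resolve_left fun h2 => ?_
    have h3 := hD.modX hχ
    rcases hD.sgn χ hχ with h4 | h4 <;> rw [h4] at h3 <;> omega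
  obtain ⟨θ, hθ⟩ := hD.Y_nonempty
  have q1 := hD.eqn_deg hθ
  have q2 : (11 : ℤ) ∣ ∑ χ ∈ X, s χ * (dg χ : ℤ) := Finset.dvd_sum fun χ hχ =>
    Dvd.dvd.mul_left (by exact_mod_cast (hX χ hχ).1) _
  have q3 := hD.modY hθ
  have q4 : dg θ = 12 ∨ dg θ = 32 ∨ dg θ = 45 ∨ dg θ = 120 := by
    refine (degs hG h P hC he (hD.Y_ne hθ)).resolve_right fun h2 => ?_
    have h3 := h2.1
    rcases hD.eps with h4 | h4 <;> rw [h4] at q1 <;> omega
  have e3 : e = 2 ∨ e = 4 := by
    have : e ≤ 4 := Nat.le_of_dvd (by norm_num) e1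
    interval_cases e <;> simp_all
  rcases e3 with rfl | rfl
  · have hc : X.card = 1 := by have := hD.cardX; omega
    obtain ⟨χ, rfl⟩ := Finset.card_eq_one.1 hc
    have hχ : χ ∈ ({χ} : Finset _) := Finset.mem_singleton_self χ
    rw [Finset.sum_singleton] at q1 q2
    have h2 : s χ = 1 ∧ dg χ = 11 := by
      rcases hD.eps with h4 | h4 <;> rcases hD.sgn χ hχ with h5 | h5 <;>
        rw [h4] at q1 q3 <;> rw [h5] at q1 q2 ⊢ <;> omega
    exact no11 hG hP hC he (hD.X_ne hχ) h2.2 (hX χ hχ).2 fun g hg => by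
      rw [hD.valX χ hχ g hg, h2.1]; simp
  · rcases hD.eps with h4 | h4 <;> rw [h4] at q3 <;> omega

end H2.Db
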