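import Mathlib
/-! Small computations in the symmetric group of degree five. -/
set_option autoImplicit false
namespace H2.KJ
def σ1 : Equiv.Perm (Fin 5) := Equiv.swap 0 3 * Equiv.swap 1 2
def σ2 : Equiv.Perm (Fin 5) := Equiv.swap 0 2 * Equiv.swap 1 3
theorem p5a : ∀ d : Equiv.Perm (Fin 5), (d * d * (σ1 * d * σ1⁻¹)) ^ 15 = 1 →
    (d * d * (σ1 * d * σ1⁻¹) * d * (σ1 * d * σ1⁻¹)) ^ 15 = 1 → (d * d * (σ2 * d * σ2⁻¹)) ^ 15 = 1 →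
    (d * d * (σ2 * d * σ2⁻¹) * d * (σ2 * d * σ2⁻¹)) ^ 15 = 1 → d ^ 15 = 1 → d = 1 := by decide +kernel
theorem p5b : ∀ g : Equiv.Perm (Fin 5), g 3 = 4 → ∀ p ∈ [3, 5], ∃ σ ∈ [σ1, σ2, σ1 * σ2],
    (σ1 * (g * σ * g⁻¹)) ^ p = 1 ∧ ¬ σ1 * (g * σ * g⁻¹) = 1 := by decide +kernel
theorem p5c : ∀ d : Equiv.Perm (Fin 5), (d ^ 15) ^ 4 = 1 := by decide +kernel
theorem p5d : ∀ d : Equiv.Perm (Fin 5), d 0 = 3 → d 1 = 2 → d 2 = 1 → d 3 = 0 → d = σ1 := by decide +kernel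
theorem p5e : ∀ d : Equiv.Perm (Fin 5), d 0 = 2 → d 1 = 3 → d 2 = 0 → d 3 = 1 → d = σ2 := by decide +kernel
end H2.KJ
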