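import Cfsg.Agent.H8.A8h
import Cfsg.Agent.H7.Carm
import Mathlib.GroupTheory.SpecificGroups.Alternating.Simple

/-! Carmichael presentation step of the 3-local recognition of the alternating group of degree 8. -/

set_option autoImplicit false
open Subgroup Equiv H8A

namespace H2Pr8

variable {G : Type*} [Group G] [Finite G] {ι : L0 →* G} {s : G}

def yy : Fin 3 → L0 :=
  ![el 1 (swap 3 4 * swap 3 0), el 1 (swap 3 4 * swap 3 1), el 1 (swap 3 4 * swap 3 2)]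

def yi : Fin 3 → L0 :=
  ![el 1 (swap 4 3 * swap 4 0), el 1 (swap 4 3 * swap 4 1), el 1 (swap 4 3 * swap 4 2)]

def cc : Fin 6 → A8 :=
  ![ev (swap 6 7 * swap 6 0), ev (swap 6 7 * swap 6 1), ev (swap 6 7 * swap 6 2),
    ev (swap 6 7 * swap 6 3), ev (swap 6 7 * swap 6 4), ev (swap 6 7 * swap 6 5)]

omit [Finite G] in
theorem sq_conj {a : G} (g : G) (h : a ^ 2 = 1) : (g * a * g⁻¹) ^ 2 = 1 := by
  rw [conj_pow, h, mul_one, mul_inv_cancel]

omit [Finite G] in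
theorem rel1 (h : Hy ι s) {a b : L0} (r : (s * ι a * s * ι b) ^ 2 = 1) (hb : z0 * b * z0⁻¹ = b) :
    (s * ι (d0 * a * d0⁻¹) * s * ι b) ^ 2 = 1 := by
  have e : s * ι (d0 * a * d0⁻¹) * s * ι b = ι z0 * (s * ι a * s * ι b) * (ι z0)⁻¹ := by
    have e1 : ι z0 * ι b * (ι z0)⁻¹ = ι b := by rw [← map_inv, ← map_mul, ← map_mul, hb]
    have e2 : s * ι d0 * s⁻¹ = ι z0 := by rw [h.si, h.sd]
    rw [map_mul, map_mul, map_inv]
    calc _ = (s * ι d0 * s⁻¹) * (s * ι a * s⁻¹) * (s * ι d0 * s⁻¹)⁻¹ * (s * s) * ι b := by group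
      _ = ι z0 * (s * ι a * s) * (ι z0)⁻¹ * (ι z0 * ι b * (ι z0)⁻¹) := by
        rw [e2, e1, h.ss, mul_one, h.si]
      _ = _ := by group
  rw [e]
  exact sq_conj _ r

omit [Finite G] in
theorem rel2 (h : Hy ι s) {a b : L0} (r : (s * ι a * s * ι b) ^ 2 = 1) (ha : z0 * a * z0⁻¹ = a) :
    (s * ι a * s * ι (d0 * b * d0⁻¹)) ^ 2 = 1 := by
  have e : s * ι a * s * ι (d0 * b * d0⁻¹) = ι d0 * (s * ι a * s * ι b) * (ι d0)⁻¹ := by
    have e1 : ι z0 * ι a * (ι z0)⁻¹ = ι a := by rw [← map_inv, ← map_mul, ← map_mul, ha]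
    have e2 : s * ι z0 * s⁻¹ = ι d0 := by rw [h.si, h.sz]
    have e3 : ι d0 * (s * ι a * s) * (ι d0)⁻¹ = s * ι a * s := by
      calc _ = (s * ι z0 * s⁻¹) * (s * ι a * s⁻¹) * (s * ι z0 * s⁻¹)⁻¹ := by rw [e2, h.si]
        _ = s * (ι z0 * ι a * (ι z0)⁻¹) * s⁻¹ := by group
        _ = _ := by rw [e1, h.si]
    rw [map_mul, map_mul, map_inv]
    calc _ = (ι d0 * (s * ι a * s) * (ι d0)⁻¹) * (ι d0 * ι b * (ι d0)⁻¹) := by rw [e3]
      _ = _ := by group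
  rw [e]
  exact sq_conj _ r

theorem base (h : Hy ι s) {t : L0} (t2 : t * t = 1) (tu : t * u0 = u0 * t)
    (hc : s * ι t * s ∈ centralizer ({ι va, ι vb} : Set G)) :
    (s * ι (r0 * t) * s * ι (yy 2)) ^ 2 = 1 := by
  have c1 : Commute (s * ι t * s) (ι va) :=
    ((mem_centralizer_iff.1 hc) (ι va) (Set.mem_insert _ _)).symm
  have c2 : Commute (s * ι t * s) (ι u0) := by
    have : Commute (ι t) (ι u0) := by rw [Commute, SemiconjBy, ← map_mul, ← map_mul, tu]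
    exact (Commute.mul_left h.su this).mul_left h.su
  have c3 : Commute (s * ι t * s) (ι (u0 * va)) := by rw [map_mul]; exact c2.mul_right c1
  have k1 : (s * ι t * s) ^ 2 = 1 := by
    rw [show s * ι t * s = s * ι t * s⁻¹ by rw [h.si]]
    exact sq_conj _ (by rw [← map_pow, pow_two, t2, map_one])
  have k2 : ι (u0 * va) ^ 2 = 1 := by
    rw [← map_pow, show (u0 * va) ^ 2 = 1 by decide, map_one]
  have e : s * ι (r0 * t) * s * ι (yy 2) =
      ι (u0 * r0) * (s * ι t * s * ι (u0 * va)) * (ι (u0 * r0))⁻¹ := by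
    rw [show yy 2 = (u0 * va) * (u0 * r0)⁻¹ by decide, map_mul ι (u0 * va), map_inv, map_mul ι r0]
    calc _ = s * ι r0 * (s * s) * ι t * s * (ι (u0 * va) * (ι (u0 * r0))⁻¹) := by
          rw [h.ss, mul_one, mul_assoc s (ι r0)]
      _ = (s * ι r0 * s) * (s * ι t * s * ι (u0 * va)) * (ι (u0 * r0))⁻¹ := by group
      _ = _ := by rw [h.sr]
  rw [e]
  exact sq_conj _ (by rw [c3.mul_pow, k1, k2, mul_one])

def lo (k : Fin 3) : Fin 8 := ⟨k, by omega⟩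
def hi (k : Fin 3) : Fin 8 := ⟨k + 3, by omega⟩

omit [Finite G] in
theorem core (h : Hy ι s) (w : Fin 3 → L0) (w3 : ∀ i, w i ^ 3 = 1)
    (w2 : ∀ i j, i ≠ j → (w i * w j) ^ 2 = 1) (wz : ∀ i, z0 * w i * z0⁻¹ = w i)
    (w0 : w 0 = d0 * w 2 * d0⁻¹) (w1 : w 1 = d0 * w 0 * d0⁻¹)
    (wd : (w 1)⁻¹ * w 0 * (w 2)⁻¹ * w 1 = d0)
    (r : (s * ι (w 2) * s * ι (yy 2)) ^ 2 = 1) :
    ∃ φ : A8 →* G, Function.Injective φ ∧ φ z8 = ι z0 ∧ φ d8 = ι d0 ∧ φ a8 = ι va ∧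
      φ b8 = ι vb := by
  have yz : ∀ i, z0 * yy i * z0⁻¹ = yy i := by decide
  have y0 : yy 0 = d0 * yy 2 * d0⁻¹ := by decide
  have y1 : yy 1 = d0 * yy 0 * d0⁻¹ := by decide
  have y3 : ∀ i, yy i ^ 3 = 1 := by decide
  have y2 : ∀ i j, i ≠ j → (yy i * yy j) ^ 2 = 1 := by decide
  have m2 : ∀ i, (s * ι (w i) * s * ι (yy 2)) ^ 2 = 1 := by
    have a0 : (s * ι (w 0) * s * ι (yy 2)) ^ 2 = 1 := by rw [w0]; exact rel1 h r (yz 2)
    have a1 : (s * ι (w 1) * s * ι (yy 2)) ^ 2 = 1 := by rw [w1]; exact rel1 h a0 (yz 2)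
    intro i
    fin_cases i
    exacts [a0, a1, r]
  have mx : ∀ i j, (s * ι (w i) * s * ι (yy j)) ^ 2 = 1 := by
    intro i j
    have a0 : (s * ι (w i) * s * ι (yy 0)) ^ 2 = 1 := by rw [y0]; exact rel2 h (m2 i) (wz i)
    have a1 : (s * ι (w i) * s * ι (yy 1)) ^ 2 = 1 := by rw [y1]; exact rel2 h a0 (wz i)
    fin_cases j
    exacts [a0, a1, m2 i]
  let σ : L0 →* G := (MulAut.conj s).toMonoidHom.comp ι
  have hσ : ∀ a, σ a = s * ι a * s := fun a => by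
    show s * ι a * s⁻¹ = _
    rw [h.si]
  let x : Fin 8 → G :=
    ![σ (w 0), σ (w 1), σ (w 2), ι (yy 0), ι (yy 1), ι (yy 2), 1, 1]
  have xlo : ∀ k, x (lo k) = σ (w k) := fun k => by fin_cases k <;> rfl
  have xhi : ∀ k, x (hi k) = ι (yy k) := fun k => by fin_cases k <;> rfl
  have cov : ∀ i : Fin 8, i ≠ 6 → i ≠ 7 → (∃ k, i = lo k) ∨ ∃ k, i = hi k := by decide
  obtain ⟨φ, hφ⟩ := H7.exists_hom_carm (G := G) (a := (6 : Fin 8)) (b := 7) (by decide) x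
    (fun i a b => by
      rcases cov i a b with ⟨k, rfl⟩ | ⟨k, rfl⟩
      · rw [xlo, ← map_pow, w3, map_one]
      · rw [xhi, ← map_pow, y3, map_one])
    (fun i j a b c d e => by
      rcases cov i a b with ⟨k, rfl⟩ | ⟨k, rfl⟩ <;> rcases cov j c d with ⟨l, rfl⟩ | ⟨l, rfl⟩
      · rw [xlo, xlo, ← map_mul, ← map_pow, w2 k l (fun q => e (by rw [q])), map_one]
      · rw [xlo, xhi, hσ]; exact mx k l
      · rw [xlo, xhi, hσ]
        have := sq_conj (ι (yy k)) (mx l k)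
        rwa [mul_assoc (ι (yy k)), mul_inv_cancel_right] at this
      · rw [xhi, xhi, ← map_mul, ← map_pow, y2 k l (fun q => e (by rw [q])), map_one])
  have f0 : φ (cc 0) = σ (w 0) := hφ 0 (by decide) (by decide) _ rfl
  have f1 : φ (cc 1) = σ (w 1) := hφ 1 (by decide) (by decide) _ rfl
  have f2 : φ (cc 2) = σ (w 2) := hφ 2 (by decide) (by decide) _ rfl
  have f3 : φ (cc 3) = ι (yy 0) := hφ 3 (by decide) (by decide) _ rfl
  have f4 : φ (cc 4) = ι (yy 1) := hφ 4 (by decide) (by decide) _ rfl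
  have f5 : φ (cc 5) = ι (yy 2) := hφ 5 (by decide) (by decide) _ rfl
  have gd : φ d8 = ι d0 := by
    rw [show d8 = (cc 4)⁻¹ * cc 3 * (cc 5)⁻¹ * cc 4 by decide,
      show d0 = (yy 1)⁻¹ * yy 0 * (yy 2)⁻¹ * yy 1 by decide]
    simp only [map_mul, map_inv, f3, f4, f5]
  refine ⟨φ, ?_, ?_, gd, ?_, ?_⟩
  · have hs := alternatingGroup.isSimpleGroup (α := Fin 8) (by simp)
    refine (MonoidHom.ker_eq_bot_iff φ).1
      ((Subgroup.Normal.eq_bot_or_eq_top inferInstance).resolve_right fun q => ?_)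
    have h1 : φ d8 = 1 := MonoidHom.mem_ker.1 (q ▸ Subgroup.mem_top _)
    rw [gd, ← map_one ι] at h1
    exact absurd (h.inj h1) (by decide)
  · rw [show z8 = (cc 1)⁻¹ * cc 0 * (cc 2)⁻¹ * cc 1 by decide, ← h.sd, ← hσ, ← wd]
    simp only [map_mul, map_inv, f0, f1, f2]
  · rw [show a8 = (cc 3)⁻¹ * cc 4 * (cc 3)⁻¹ * (cc 5)⁻¹ by decide,
      show va = (yy 0)⁻¹ * yy 1 * (yy 0)⁻¹ * (yy 2)⁻¹ by decide]
    simp only [map_mul, map_inv, f3, f4, f5]
  · rw [show b8 = (cc 3)⁻¹ * cc 5 * (cc 3)⁻¹ * (cc 4)⁻¹ by decide,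
      show vb = (yy 0)⁻¹ * yy 2 * (yy 0)⁻¹ * (yy 1)⁻¹ by decide]
    simp only [map_mul, map_inv, f3, f4, f5]

theorem pr (h : Hy ι s) (hc : s * ι v1 * s ∈ centralizer ({ι va, ι vb} : Set G) ∨ s * ι va * s ∈ centralizer ({ι va, ι vb} : Set G)) : ∃ φ : A8 →* G, Function.Injective φ ∧ φ z8 = ι z0 ∧ φ d8 = ι d0 ∧ φ a8 = ι va ∧ φ b8 = ι vb := by
  rcases hc with hc | hc
  · refine core h yy (by decide) (by decide) (by decide) (by decide) (by decide) (by decide) ?_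
    have := base h (t := v1) (by decide) (by decide) hc
    rwa [show r0 * v1 = yy 2 by decide] at this
  · refine core h yi (by decide) (by decide) (by decide) (by decide) (by decide) (by decide) ?_
    have := base h (t := va) (by decide) (by decide) hc
    rwa [show r0 * va = yi 2 by decide] at this

end H2Pr8
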