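import Cfsg.Agent.H2.U1a
import Cfsg.Prelude.Def_DegreeGraph

/-!
Simple groups of order 5616: centralizers of involutions and of elements of order three.
-/

set_option autoImplicit false
set_option linter.unusedSectionVars false

open scoped ComplexConjugate
open Cfsg H19 Subgroup
open H17 hiding dg
open H20 (cent nrm)

namespace H2.U1

variable {G : Type*} [Group G] [Finite G]

theorem sumz (w : G) [Fintype (zpowers w)] (F : G → ℂ) :
    ∑ x : zpowers w, F x = ∑ k ∈ Finset.range (orderOf w), F (w ^ k) := by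
  have e1 : ∑ x : zpowers w, F x = ∑ i : Fin (orderOf w), F (w ^ (i : ℕ)) :=
    (Fintype.sum_equiv (finEquivZPowers (isOfFinOrder_of_finite w)) _ _ fun i => rfl).symm
  rw [e1, Fin.sum_univ_eq_sum_range (fun i => F (w ^ i))]

theorem num : ∀ n ∈ Nat.divisors 432, ∀ c ∈ Finset.Icc (-9 : ℤ) 11, 2 ∣ n → 3 ∣ c →
    1 + c ^ 2 + 4 * (1 - c) ^ 2 ≤ n → 16 ∣ ((5616 / n : ℕ) : ℤ) * (1 - c) →
      ¬ 8 ∣ n ∧ (4 ∣ n → n = 108) := by
  decide +kernel

namespace Dat

variable [IsSimpleGroup G] {χ ψ : IrrCharacter G} {Y : Finset (IrrCharacter G)}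
  (h : Nat.card G = 5616) (D : Dat χ ψ Y)
include D

theorem d1 : dg (triv G) = 1 := ch_deg_triv

theorem sumS [DecidableEq (IrrCharacter G)] {M : Type*} [AddCommMonoid M]
    (F : IrrCharacter G → M) :
    ∑ ξ ∈ insert (triv G) (insert χ (insert ψ Y)), F ξ =
      F (triv G) + (F χ + (F ψ + ∑ θ ∈ Y, F θ)) := by
  have a1 := D.d1
  have a2 := D.dχ
  have a3 := D.dψ
  rw [Finset.sum_insert, Finset.sum_insert, Finset.sum_insert]
  · intro e; have := D.dY _ e; omega
  · simp only [Finset.mem_insert, not_or]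
    exact ⟨fun e => by rw [e] at a2; omega, fun e => by have := D.dY _ e; omega⟩
  · simp only [Finset.mem_insert, not_or]
    exact ⟨fun e => by rw [e] at a1; omega, fun e => by rw [e] at a1; omega,
      fun e => by have := D.dY _ e; omega⟩

theorem c1 : (χ : G → ℂ) 1 = 12 := by
  rw [← cast_deg]; exact_mod_cast congrArg (fun n : ℕ => (n : ℂ)) D.dχ

theorem p1 : (ψ : G → ℂ) 1 = 27 := by
  rw [← cast_deg]; exact_mod_cast congrArg (fun n : ℕ => (n : ℂ)) D.dψ

theorem t1 {θ : IrrCharacter G} (hθ : θ ∈ Y) : (θ : G → ℂ) 1 = 16 := by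
  rw [← cast_deg]; exact_mod_cast congrArg (fun n : ℕ => (n : ℂ)) (D.dY θ hθ)

theorem exY : ∃ θ, θ ∈ Y := Finset.card_pos.1 (by rw [D.cY]; norm_num)

theorem real (g : G) : (χ : G → ℂ) g⁻¹ = (χ : G → ℂ) g := by
  set ξ : IrrCharacter G := ⟨fun g => (χ : G → ℂ) g⁻¹, χ.2.comp_inv⟩
  have h1 : dg ξ = 12 := by
    have : ((dg ξ : ℕ) : ℂ) = 12 := by
      rw [cast_deg]; change (χ : G → ℂ) 1⁻¹ = _; rw [inv_one, D.c1]
    exact_mod_cast this
  have a1 := D.d1
  have a3 := D.dψ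
  rcases D.oth ξ with e | e | e | e | e
  · rw [e] at h1; omega
  · exact congrFun (congrArg Subtype.val e) g
  · rw [e] at h1; omega
  · have := D.dY _ e; omega
  · have := e.1; omega

theorem norm_le (g : G) : 1 + (‖(χ : G → ℂ) g‖ ^ 2 + (‖(ψ : G → ℂ) g‖ ^ 2 +
    ∑ θ ∈ Y, ‖(θ : G → ℂ) g‖ ^ 2)) ≤ Nat.card (centralizer ({g} : Set G)) := by
  classical
  have h1 := D.sumS fun ξ => ‖(ξ : G → ℂ) g‖ ^ 2
  simp only [triv_apply, norm_one, one_pow] at h1
  rw [← sum_normSq_irr g, ← h1]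
  exact Finset.sum_le_sum_of_subset_of_nonneg (Finset.subset_univ _) fun _ _ _ => sq_nonneg _

theorem p13 (h : Nat.card G = 5616) : ∃ ξ : IrrCharacter G, 13 ∣ dg ξ := by
  classical
  by_contra h1
  push Not at h1
  have h2 : (Finset.univ : Finset (IrrCharacter G)) = insert (triv G) (insert χ (insert ψ Y)) := by
    ext ξ
    have := D.oth ξ
    have := h1 ξ
    simp only [Finset.mem_univ, Finset.mem_insert, true_iff]
    tauto
  have h3 := sum_irr_sq (G := G)
  rw [h2, D.sumS, Finset.sum_congr rfl (g := fun _ => (16 : ℂ) ^ 2) fun θ hθ => by rw [D.t1 hθ],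
    D.c1, D.p1, triv_apply, Finset.sum_const, D.cY, h] at h3
  norm_num at h3

include h

theorem z2 {θ : IrrCharacter G} (hθ : θ ∈ Y) {g : G} (hg : 2 ∣ orderOf g) : (θ : G → ℂ) g = 0 :=
  dz (p := 2) (k := 4) (m := 351) (by rw [h]; norm_num) (by norm_num) (by rw [D.dY θ hθ]; norm_num) hg

theorem z3 {g : G} (hg : 3 ∣ orderOf g) : (ψ : G → ℂ) g = 0 :=
  haveI : Fact (Nat.Prime 3) := ⟨by norm_num⟩
  dz (p := 3) (k := 3) (m := 208) (by rw [h]; norm_num) (by norm_num) (by rw [D.dψ]; norm_num) hg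

theorem inv {t : G} (ht : orderOf t = 2) : (χ : G → ℂ) t = 4 ∧ (ψ : G → ℂ) t = 3 := by
  classical
  have hG := sm_commutator_eq_top (nc h)
  have t2 : t * t = 1 := by rw [← pow_two, ← ht, pow_orderOf_eq_one]
  have ti : t⁻¹ = t := inv_eq_of_mul_eq_one_right t2
  obtain ⟨x, hx⟩ := exists_prime_orderOf_dvd_card' (G := G) 13 (by rw [h]; norm_num)
  have h1 := H25.struct_const t t x
  rw [ncl0 h hx t2, Nat.cast_zero, mul_zero, ti] at h1
  have h2 := (mul_eq_zero.1 h1).resolve_left card_ne_zero_complex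
  rw [← Finset.sum_subset (Finset.subset_univ (insert (triv G) (insert χ (insert ψ Y))))
    (fun ξ _ hξ => by
      simp only [Finset.mem_insert, not_or] at hξ
      have := D.oth ξ
      rw [(show (13 ∣ dg ξ ∧ ∀ g, 13 ∣ orderOf g → (ξ : G → ℂ) g = 0) by tauto).2 x (by rw [hx])]
      simp), D.sumS, Finset.sum_eq_zero (fun θ hθ => by rw [D.z2 h hθ (by rw [ht])]; simp),
    D.vχ x (by rw [hx]), D.vψ x (by rw [hx]), D.c1, D.p1] at h2
  simp only [triv_apply] at h2
  obtain ⟨θ, hθ⟩ := D.exY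
  have h3 := D.eqn θ hθ t (by rw [ht]; norm_num)
  rw [D.z2 h hθ (by rw [ht])] at h3
  obtain ⟨k, hk⟩ := Db.inv4 hG ψ.2.isCharacter t2
  rw [D.p1] at hk
  have h4 : (χ : G → ℂ) t = 1 + (ψ : G → ℂ) t := by linear_combination h3
  rw [h4] at h2
  have h5 : ((ψ : G → ℂ) t - 3) * (5 * (ψ : G → ℂ) t + 33) = 0 := by
    linear_combination (-108) * h2
  rcases mul_eq_zero.1 h5 with e | e
  · have : (ψ : G → ℂ) t = 3 := by linear_combination e
    exact ⟨by rw [h4, this]; norm_num, this⟩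
  · rw [hk] at e
    have : (5 * (27 - 4 * k) + 33 : ℤ) = 0 := by exact_mod_cast e
    omega

theorem a1 {t : G} (ht : orderOf t = 2) : Nat.card (centralizer ({t} : Set G)) = 48 := by
  have h1 := ψ.2.isIntegral_central t
  rw [(D.inv h ht).2, D.p1] at h1
  have h2 := int_dvd_of_isIntegral_div (a := (centralizer ({t} : Set G)).index * 3) (b := 27)
    (by norm_num) (by push_cast; exact h1)
  have h3 := nd13 h (g := t) (fun e => by simp [e] at ht) (by omega)
  have h4 := D.norm_le t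
  rw [(D.inv h ht).1, (D.inv h ht).2] at h4
  have h5 : (0 : ℝ) ≤ ∑ θ ∈ Y, ‖(θ : G → ℂ) t‖ ^ 2 := Finset.sum_nonneg fun _ _ => sq_nonneg _
  have h6 : (26 : ℝ) ≤ Nat.card (centralizer ({t} : Set G)) := by
    norm_num at h4; linarith
  have h7 : 26 ≤ Nat.card (centralizer ({t} : Set G)) := by exact_mod_cast h6
  have h8 := (centralizer ({t} : Set G)).card_mul_index
  rw [h] at h8
  generalize Nat.card (centralizer ({t} : Set G)) = n at *
  generalize (centralizer ({t} : Set G)).index = i at *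
  obtain ⟨j, rfl⟩ : 9 ∣ i := by omega
  have h9 : n * j = 624 := by nlinarith
  have h10 : n ∣ 13 * 48 := ⟨j, h9.symm⟩
  have h11 : n ∣ 48 :=
    Nat.Coprime.dvd_of_dvd_mul_left ((Nat.Prime.coprime_iff_not_dvd (by norm_num)).2 h3).symm h10
  have h12 := Nat.le_of_dvd (by norm_num) h11
  interval_cases n <;> omega

theorem oneCl {t s : G} (ht : orderOf t = 2) (hs : orderOf s = 2) : IsConj t s := by
  classical
  by_contra hc
  have rt := H25.ratE_of_two (g := t) (by rw [← ht, pow_orderOf_eq_one])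
  have rs := H25.ratE_of_two (g := s) (by rw [← hs, pow_orderOf_eq_one])
  have h1 := H25.sum_iv_self rt
  have h2 := H25.sum_iv_self rs
  have h3 := H25.sum_iv_ne rt rs hc
  rw [H25.cz, D.a1 h ht] at h1
  rw [H25.cz, D.a1 h hs] at h2
  have h4 : ∑ ξ : IrrCharacter G, (H25.iv ξ t + H25.iv ξ s) ^ 2 = 96 := by
    simp only [add_sq, Finset.sum_add_distrib, mul_assoc, ← Finset.mul_sum, h1, h2, h3]
    norm_num
  have h5 := Finset.sum_le_sum_of_subset_of_nonneg
    (f := fun ξ : IrrCharacter G => (H25.iv ξ t + H25.iv ξ s) ^ 2)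
    (Finset.subset_univ (insert (triv G) (insert χ (insert ψ Y)))) fun _ _ _ => sq_nonneg _
  rw [h4, D.sumS] at h5
  have h6 : (0 : ℤ) ≤ ∑ θ ∈ Y, (H25.iv θ t + H25.iv θ s) ^ 2 :=
    Finset.sum_nonneg fun _ _ => sq_nonneg _
  have e1 : ∀ u, orderOf u = 2 → H25.iv χ u = 4 ∧ H25.iv ψ u = 3 := fun u hu => by
    simp [H25.iv, (D.inv h hu).1, (D.inv h hu).2]
  rw [H25.iv_triv, H25.iv_triv, (e1 t ht).1, (e1 t ht).2, (e1 s hs).1, (e1 s hs).2] at h5
  linarith

theorem six {g : G} (hg : orderOf g = 6) : (χ : G → ℂ) g = 1 := by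
  obtain ⟨θ, hθ⟩ := D.exY
  have h3 := D.eqn θ hθ g (by rw [hg]; norm_num)
  rw [D.z2 h hθ (by rw [hg]; norm_num), D.z3 h (by rw [hg]; norm_num)] at h3
  linear_combination h3

theorem a23 {t y : G} (ht : orderOf t = 2) (hy : orderOf y = 3) (e : t * y = y * t) :
    ¬ 8 ∣ Nat.card (centralizer ({y} : Set G)) ∧
      (4 ∣ Nat.card (centralizer ({y} : Set G)) → Nat.card (centralizer ({y} : Set G)) = 108) := by
  have hc : Commute t y := e
  have hw : orderOf (t * y) = 6 := by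
    rw [hc.orderOf_mul_eq_mul_orderOf_of_coprime (by rw [ht, hy]; norm_num), ht, hy]
  have w4 : (t * y) ^ 4 = y := by
    rw [hc.mul_pow, show 4 = 2 * 2 from rfl, pow_mul t, ← ht, pow_orderOf_eq_one, one_pow, one_mul,
      ht, show 2 * 2 = 3 + 1 from rfl, pow_succ, ← hy, pow_orderOf_eq_one, one_mul]
  have w2 : (t * y) ^ 2 = y⁻¹ := by
    rw [← w4, eq_inv_iff_mul_eq_one, w4]
    nth_rewrite 2 [← w4]
    rw [← pow_add, show 2 + 4 = orderOf (t * y) by rw [hw], pow_orderOf_eq_one]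
  haveI := Fintype.ofFinite (zpowers (t * y))
  obtain ⟨m, hm⟩ := ch_sum_sub χ.2.isCharacter (zpowers (t * y))
  rw [sumz (t * y) χ, Nat.card_zpowers, hw] at hm
  simp only [Finset.sum_range_succ, Finset.sum_range_zero, pow_zero] at hm
  rw [w4, w2, D.real, D.c1, D.six h (g := (t * y) ^ 1) (by rw [pow_one, hw]),
    D.six h (g := (t * y) ^ 5) (by rw [orderOf_pow' _ (by norm_num), hw]; norm_num),
    (D.inv h (t := (t * y) ^ 3) (by rw [orderOf_pow' _ (by norm_num), hw]; norm_num)).1] at hm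
  obtain ⟨c, hc3, hcy⟩ : ∃ c : ℤ, 3 ∣ c ∧ (χ : G → ℂ) y = c :=
    ⟨3 * m - 9, by omega, by push_cast at hm ⊢; linear_combination hm / 2⟩
  have hθ : ∀ θ ∈ Y, (θ : G → ℂ) y = ((1 - c : ℤ) : ℂ) := fun θ hθ => by
    rw [D.eqn θ hθ y (by rw [hy]; norm_num), D.z3 h (by rw [hy]), hcy]; push_cast; ring
  have h4 := D.norm_le y
  rw [Finset.sum_congr rfl (g := fun _ => (((1 - c : ℤ) : ℝ)) ^ 2) (fun θ h1 => by
    rw [hθ θ h1, Complex.norm_intCast, sq_abs]), hcy, Complex.norm_intCast, sq_abs,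
    D.z3 h (by rw [hy]), Finset.sum_const, D.cY] at h4
  have h5 : 1 + c ^ 2 + 4 * (1 - c) ^ 2 ≤ (Nat.card (centralizer ({y} : Set G)) : ℤ) := by
    have : ((1 + c ^ 2 + 4 * (1 - c) ^ 2 : ℤ) : ℝ) ≤
        ((Nat.card (centralizer ({y} : Set G)) : ℤ) : ℝ) := by
      push_cast at h4 ⊢
      simp only [norm_zero, nsmul_eq_mul] at h4
      push_cast at h4
      linarith
    exact_mod_cast this
  obtain ⟨θ, hθY⟩ := D.exY
  have h1 := θ.2.isIntegral_central y
  rw [hθ θ hθY, D.t1 hθY] at h1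
  have h2 := int_dvd_of_isIntegral_div (a := (centralizer ({y} : Set G)).index * (1 - c)) (b := 16)
    (by norm_num) (by push_cast at h1 ⊢; exact h1)
  have h3 := nd13 h (g := y) (fun e => by simp [e] at hy) (by omega)
  have h6 : 2 ∣ Nat.card (centralizer ({y} : Set G)) :=
    ht ▸ Subgroup.orderOf_dvd_natCard _ (mem_centralizer_singleton_iff.2 e)
  have h8 := (centralizer ({y} : Set G)).card_mul_index
  rw [h] at h8
  generalize Nat.card (centralizer ({y} : Set G)) = n at *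
  generalize (centralizer ({y} : Set G)).index = i at *
  have h10 : n ∣ 13 * 432 := ⟨i, h8.symm⟩
  have h11 : n ∣ 432 :=
    Nat.Coprime.dvd_of_dvd_mul_left ((Nat.Prime.coprime_iff_not_dvd (by norm_num)).2 h3).symm h10
  have h12 := Nat.le_of_dvd (by norm_num) h11
  have h13 : i = 5616 / n := by
    rw [← h8, Nat.mul_div_cancel_left _ (Nat.pos_of_dvd_of_pos h11 (by norm_num))]
  have h14 : (n : ℤ) ≤ 432 := by exact_mod_cast h12
  refine num n (Nat.mem_divisors.2 ⟨h11, by norm_num⟩) c (Finset.mem_Icc.2 ⟨?_, ?_⟩) h6 hc3 h5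
    (h13 ▸ h2)
  · nlinarith
  · nlinarith

theorem a4 (K : Subgroup G) (hK : Nat.card K = 16) : ¬ ∀ g ∈ K, g * g = 1 := fun h1 => by
  haveI := Fintype.ofFinite K
  obtain ⟨m, hm⟩ := ch_sum_sub χ.2.isCharacter K
  rw [ch_sum_const (fun x : K => (χ : G → ℂ) x) 4 (fun x hx => (D.inv h
    (orderOf_eq_prime (by rw [pow_two, h1 x x.2]) fun e => hx (Subtype.ext e))).1), hK,
    OneMemClass.coe_one, D.c1] at hm
  have : (12 + (16 - 1) * 4 : ℤ) = 16 * m := by exact_mod_cast hm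
  omega

end Dat

theorem oneCl [IsSimpleGroup G] (h : Nat.card G = 5616) {t s : G} (ht : orderOf t = 2)
    (hs : orderOf s = 2) : IsConj t s := by
  obtain ⟨χ, ψ, Y, D⟩ := dat h
  exact D.oneCl h ht hs

theorem four_dvd {t s : G} {K : Subgroup G} (ht : orderOf t = 2) (hs : orderOf s = 2) (hne : t ≠ s)
    (e : t * s = s * t) (h1 : t ∈ K) (h2 : s ∈ K) : 4 ∣ Nat.card K := by
  classical
  have t2 : t * t = 1 := by rw [← pow_two, ← ht, pow_orderOf_eq_one]
  have s2 : s * s = 1 := by rw [← pow_two, ← hs, pow_orderOf_eq_one]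
  have h3 : s ∉ zpowers t := by
    rw [mem_zpowers_iff_mem_range_orderOf, ht]
    intro hq
    obtain ⟨i, hi, e1⟩ := Finset.mem_image.1 hq
    have := Finset.mem_range.1 hi
    interval_cases i
    · rw [← e1] at hs; simp at hs
    · exact hne (by simpa using e1)
  have h4 := (sm_sum_inv hs h3 (sm_inv_zpowers (by
    rw [← e, mul_inv_cancel_right, inv_eq_of_mul_eq_one_right t2]))).1
  rw [Nat.card_zpowers, ht] at h4
  rw [show 4 = 2 * 2 from rfl, ← h4]
  exact card_dvd_of_le (sup_le (zpowers_le.2 h1) (zpowers_le.2 h2))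

theorem u1 [IsSimpleGroup G] (h : Nat.card G = 5616) :
    (∀ t : G, orderOf t = 2 → Nat.card (centralizer ({t} : Set G)) = 48) ∧
    (∀ t y : G, orderOf t = 2 → orderOf y = 3 → t*y = y*t →
      ¬ 8 ∣ Nat.card (centralizer ({y} : Set G))) ∧
    (∀ t s y : G, orderOf t = 2 → orderOf s = 2 → t ≠ s → t*s = s*t → orderOf y = 3 →
      t*y = y*t → s*y = y*s → Nat.card (centralizer ({y} : Set G)) = 108) ∧
    (∀ K : Subgroup G, Nat.card K = 16 → ¬ ∀ g ∈ K, g*g = 1) ∧
    3 ∈ degreePrimes G ∧ 13 ∈ degreePrimes G := by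
  obtain ⟨χ, ψ, Y, D⟩ := dat h
  refine ⟨fun t ht => D.a1 h ht, fun t y ht hy e => (D.a23 h ht hy e).1,
    fun t s y ht hs hne e hy e1 e2 => (D.a23 h ht hy e1).2 (four_dvd ht hs hne e
      (mem_centralizer_singleton_iff.2 e1) (mem_centralizer_singleton_iff.2 e2)), D.a4 h,
    ⟨by norm_num, 12, ⟨χ, D.dχ⟩, by norm_num⟩, ?_⟩
  obtain ⟨ξ, hξ⟩ := D.p13 h
  exact ⟨by norm_num, _, ⟨ξ, rfl⟩, hξ⟩

end H2.U1
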