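import Cfsg.Agent.H2.Db
import Cfsg.Agent.H2.A7
import Cfsg.Agent.H25.Tri
import Cfsg.Agent.H19.Ht3

/-!
Simple groups of order 5616: the principal 13-block.
-/

set_option autoImplicit false
set_option linter.unusedSectionVars false

open scoped ComplexConjugate
open Cfsg H19 Subgroup
open H17 hiding dg
open H20 (cent nrm)

namespace H2.U1

variable {G : Type*} [Group G] [Finite G]

instance f13 : Fact (Nat.Prime 13) := ⟨by norm_num⟩

theorem dz {p k m : ℕ} [hp : Fact p.Prime] (hG : Nat.card G = p ^ k * m) (hm : ¬ p ∣ m)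
    {χ : IrrCharacter G} (h : p ^ k ∣ dg χ) {g : G} (hg : p ∣ orderOf g) : (χ : G → ℂ) g = 0 := by
  refine vanish_of_vd ((H20.vd_le p χ).antisymm ?_) hg
  have hm0 : m ≠ 0 := by rintro rfl; simp at hm
  rw [hG, Nat.factorization_mul (pow_ne_zero _ hp.out.ne_zero) hm0, Finsupp.add_apply,
    Nat.factorization_eq_zero_of_not_dvd hm, hp.out.factorization_pow, Finsupp.single_eq_same]
  exact (hp.out.pow_dvd_iff_le_factorization (dg_pos χ).ne').1 h

theorem nc [IsSimpleGroup G] (h : Nat.card G = 5616) : ¬ IsMulCommutative G :=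
  sm_noncomm_of_card (by rw [h]; norm_num)

theorem par [IsSimpleGroup G] (h : Nat.card G = 5616) (P : Sylow 13 G) :
    Nat.card (P : Subgroup G) = 13 ∧ cent (P : Subgroup G) ≤ P ∧
      (cent (P : Subgroup G)).relIndex (nrm (P : Subgroup G)) = 3 :=
  a7_par (d := 144) (nc h) (by omega) (by norm_num) (by rw [h]; norm_num) (by rw [h]; norm_num)
    (by rw [h]; decide +kernel) P

theorem syl {x : G} (hx : orderOf x = 13) : ∃ P : Sylow 13 G, x ∈ (P : Subgroup G) := by
  obtain ⟨P, hP⟩ := (IsPGroup.of_card (p := 13) (n := 1) (G := zpowers x)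
    (by rw [Nat.card_zpowers, hx, pow_one])).exists_le_sylow
  exact ⟨P, hP (mem_zpowers x)⟩

theorem c13 [IsSimpleGroup G] (h : Nat.card G = 5616) {x g : G} (hx : orderOf x = 13)
    (e : x * g = g * x) : g = 1 ∨ orderOf g = 13 := by
  obtain ⟨P, hP⟩ := syl hx
  obtain ⟨h1, h2, -⟩ := par h P
  have x1 : x ≠ 1 := fun e => by simp [e] at hx
  have : g ∈ (P : Subgroup G) := h2 (by
    rw [cent, sm_cent_eq h1 hP x1]; exact mem_centralizer_singleton_iff.2 e.symm)
  by_cases g1 : g = 1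
  · exact Or.inl g1
  · exact Or.inr (sm_orderOf_eq h1 this g1)

theorem nd13 [IsSimpleGroup G] (h : Nat.card G = 5616) {g : G} (g1 : g ≠ 1)
    (hg : orderOf g ≠ 13) : ¬ 13 ∣ Nat.card (centralizer ({g} : Set G)) := fun hd => by
  obtain ⟨x, hx⟩ := exists_prime_orderOf_dvd_card' 13 hd
  rw [← orderOf_coe] at hx
  rcases c13 h hx (mem_centralizer_singleton_iff.1 x.2) with e | e
  · exact g1 e
  · exact hg e

theorem ncl0 [IsSimpleGroup G] (hn : Nat.card G = 5616) {a g : G} (ha : orderOf a = 13)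
    (hg : g * g = 1) : H25.ncl g g a = 0 := by
  by_contra h
  obtain ⟨⟨s, t⟩, hs, ht, e⟩ := Set.nonempty_of_ncard_ne_zero h
  have sq : ∀ s, IsConj g s → s * s = 1 := fun s hs => by
    obtain ⟨c, rfl⟩ := isConj_iff.1 hs
    rw [← pow_two, conj_pow, pow_two, hg]; simp
  simp only at hs ht e
  have h1 : s * a * s⁻¹ = a⁻¹ := by
    rw [← e, mul_inv_rev, inv_eq_of_mul_eq_one_right (sq t ht), ← mul_assoc, sq s hs, one_mul]
  obtain ⟨P, hP'⟩ := syl ha
  obtain ⟨hP, hC, he⟩ := par hn P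
  have a1 : a ≠ 1 := fun e => by simp [e] at ha
  have cN : Nat.card (nrm (P : Subgroup G)) = 39 := by
    rw [le_antisymm hC (sm_le_cent hP)] at he
    have := (subgroupOf (P : Subgroup G) (nrm (P : Subgroup G))).card_mul_index
    change _ * relIndex _ _ = _ at this
    rw [he, Nat.card_congr (subgroupOfEquivOfLe le_normalizer).toEquiv, hP] at this
    omega
  have m : s ∈ nrm (P : Subgroup G) := by
    rw [← sm_zpowers_eq hP hP' a1]
    exact sm_mem_normalizer_zpowers (h1 ▸ inv_mem (mem_zpowers a))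
  have d1 := orderOf_dvd_natCard (⟨s, m⟩ : nrm (P : Subgroup G))
  rw [cN, ← orderOf_coe] at d1
  have d2 : orderOf s ∣ 2 := orderOf_dvd_of_pow_eq_one (by rw [pow_two, sq s hs])
  have s1 : s = 1 := orderOf_eq_one_iff.1 (Nat.eq_one_of_dvd_coprimes (by norm_num) d1 d2)
  rw [s1, one_mul, inv_one, mul_one, eq_inv_iff_mul_eq_one, ← pow_two,
    ← orderOf_dvd_iff_pow_eq_one, ha] at h1
  omega

/-- The characters. -/
structure Dat (χ ψ : IrrCharacter G) (Y : Finset (IrrCharacter G)) : Prop where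
  dχ : dg χ = 12
  dψ : dg ψ = 27
  cY : Y.card = 4
  dY : ∀ θ ∈ Y, dg θ = 16
  eqn : ∀ θ ∈ Y, ∀ g, ¬ 13 ∣ orderOf g → (θ : G → ℂ) g = 1 - (χ : G → ℂ) g + (ψ : G → ℂ) g
  oth : ∀ ξ : IrrCharacter G, ξ = triv G ∨ ξ = χ ∨ ξ = ψ ∨ ξ ∈ Y ∨
    (13 ∣ dg ξ ∧ ∀ g, 13 ∣ orderOf g → (ξ : G → ℂ) g = 0)
  vχ : ∀ g, 13 ∣ orderOf g → (χ : G → ℂ) g = -1
  vψ : ∀ g, 13 ∣ orderOf g → (ψ : G → ℂ) g = 1

theorem key : ∀ d < 75, d ∣ 432 → (d % 13 = 1 → d = 1 ∨ d = 27) ∧ (d % 13 = 12 → d = 12) := by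
  decide

theorem dat [IsSimpleGroup G] (h : Nat.card G = 5616) : ∃ χ ψ Y, Dat (G := G) χ ψ Y := by
  classical
  have hG := sm_commutator_eq_top (nc h)
  obtain ⟨P⟩ : Nonempty (Sylow 13 G) := inferInstance
  obtain ⟨hP, hC, he⟩ := par h P
  have hI : (cent (P : Subgroup G)).index = 432 := by
    rw [le_antisymm hC (sm_le_cent hP)]
    exact sm_index_sylow_eq P (k := 1) (m := 432) (by rw [h]; norm_num) (by norm_num)
  obtain ⟨O, _, hO⟩ := exists_ovp 13
  obtain ⟨X, Y, s, ε, hD⟩ := d1_exists hO (by norm_num) P hP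
  rw [he] at hD
  have hY : Y.card = 4 := by have := hD.cardY; omega
  have hX : ∀ χ ∈ X, (dg χ = 12 ∧ s χ = -1) ∨ (dg χ = 27 ∧ s χ = 1) := fun χ hχ => by
    have h1 := hD.modX hχ
    have h2 := hI ▸ hD.dvdX hχ
    have h3 : dg χ ≠ 1 := ch_deg_ne_one hG (hD.X_ne hχ)
    have h4 := Db.sq_le_card χ
    rw [h] at h4
    have h5 : dg χ < 75 := by nlinarith
    have := key _ h5 h2
    rcases hD.sgn χ hχ with e | e <;> rw [e] at h1 ⊢ <;> omega
  obtain ⟨θ, hθ⟩ := hD.Y_nonempty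
  have main : ∀ a b, a ≠ b → X = {a, b} → dg a = 12 ∧ s a = -1 → dg b = 27 ∧ s b = 1 →
      Dat a b Y := by
    rintro a b hab rfl ⟨a1, a2⟩ ⟨b1, b2⟩
    have q := hD.eqn_deg hθ
    rw [Finset.sum_pair hab, a1, a2, b1, b2] at q
    have q2 : ε = 1 ∧ dg θ = 16 := by rcases hD.eps with e | e <;> rw [e] at q ⊢ <;> omega
    refine ⟨a1, b1, hY, fun θ' h' => (hD.degY_eq h' hθ).trans q2.2, fun θ' h' g hg => ?_,
      fun ξ => ?_, fun g hg => ?_, fun g hg => ?_⟩
    · have := hD.eqn θ' h' g hg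
      rw [Finset.sum_pair hab, a2, b2, q2.1] at this
      push_cast at this
      linear_combination this
    · by_cases hB : ξ ∈ irr (B0 O G)
      · have := (hD.mem ξ).1 hB
        simp only [Finset.mem_insert, Finset.mem_singleton] at this
        tauto
      · refine Or.inr (Or.inr (Or.inr (Or.inr ?_)))
        have h2 : ∀ g, 13 ∣ orderOf g → (ξ : G → ℂ) g = 0 :=
          fun g hg => hD.zero_of_not_mem hC hB hg
        refine ⟨?_, h2⟩
        haveI := Fintype.ofFinite (P : Subgroup G)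
        obtain ⟨m, hm⟩ := ch_sum_sub ξ.2.isCharacter (P : Subgroup G)
        rw [ch_sum_const (fun x : (P : Subgroup G) => (ξ : G → ℂ) x) 0
          (fun x hx => h2 x (hD.sing x.2 fun e => hx (Subtype.ext e))), hP, mul_zero, add_zero,
          OneMemClass.coe_one, ← cast_deg] at hm
        exact ⟨m, by exact_mod_cast hm⟩
    · rw [hD.valX a (by simp) g hg, a2]; simp
    · rw [hD.valX b (by simp) g hg, b2]; simp
  obtain ⟨a, b, hab, e⟩ := Finset.card_eq_two.1 (show X.card = 2 by have := hD.cardX; omega)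
  have q := hD.eqn_deg hθ
  have q3 := hI ▸ hD.dvdY hθ
  rw [e, Finset.sum_pair hab] at q
  rcases hX a (by simp [e]) with ha | ha <;> rcases hX b (by simp [e]) with hb | hb
  · rw [ha.1, ha.2, hb.1, hb.2] at q
    have : dg θ = 23 := by rcases hD.eps with e | e <;> rw [e] at q <;> omega
    rw [this] at q3; norm_num at q3
  · exact ⟨a, b, Y, main a b hab e ha hb⟩
  · exact ⟨b, a, Y, main b a hab.symm (by rw [e, Finset.pair_comm]) hb ha⟩
  · rw [ha.1, ha.2, hb.1, hb.2] at q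
    have : dg θ = 55 := by rcases hD.eps with e | e <;> rw [e] at q <;> omega
    rw [this] at q3; norm_num at q3

end H2.U1
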